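import Cfsg.Agent.H237.RC.IDFin
import Cfsg.Agent.H188.RC.IDNormal

/-!
# S3510, triality type (i): box iD
-/

set_option autoImplicit false
open Cfsg

namespace Cfsg.Agent.H237.RC.ID

open Module QuadraticMap MulAction Cfsg.Agent.LieClassical.OrthCore Cfsg.Agent.LieClassical.OrthTrans
  Cfsg.Agent.LieClassical.OrthSimple Cfsg.Agent.ClassicalGeometry.OrthAut1
  Cfsg.Agent.ClassicalGeometry.OrthSemi Cfsg.Agent.LieClassical.QuadForms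
  Cfsg.Agent.ClassicalGeometry.TrialityOct Cfsg.Agent.ClassicalGeometry.Triality
  Cfsg.Agent.H198.TriBase Cfsg.Agent.H198.TriAut Cfsg.Agent.H752.SemiNormal Cfsg.Agent.AutOrth.SemiSim
  Cfsg.Agent.H106.RC Cfsg.Agent.H93.RC Cfsg.Agent.H566.RC

/-- **BOX iD** (`x i₁ = ρ`, `u = x i₂` of order `p ≠ 3`, the other members have a common fixed space of
dimension four on which `u` is not trivial). -/
theorem box_iD {F G Ω : Type} [Field F] [Finite F] [Group G] [Finite G] [MulAction G Ω] [Nonempty Ω]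
    {N : Subgroup G} {σ : P8 F →* G} (hG : Good (plusForm 4 F)) (hE : Env G Ω N)
    (hσ : Rp (plusForm 4 F) N σ) {p : ℕ} [CharP F p] (hp3 : p ≠ 3)
    {ι : Type} [Finite ι] [DecidableEq ι] {x : ι → G} {r : ι → ℕ} (hr : ∀ i, (r i).Prime)
    (hx : ∀ i, x i ^ r i = 1) (hx1 : ∀ i, x i ≠ 1) (hc : ∀ i j, x i * x j = x j * x i) (hcov : Cov Ω x)
    {i₁ i₂ : ι} (h12 : i₂ ≠ i₁) (h1 : La σ (x i₁) (rho hG)) {M : ι → G8 F}
    (hl : ∀ j, j ≠ i₁ → Lf (up σ) (x j) (M j)) (hT : ∀ j, j ≠ i₁ → TriS (M j) (M j) (M j))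
    (hL : ∀ j, j ≠ i₁ → H198.TriDia.IsLin (M j)) (hMr : ∀ j, j ≠ i₁ → M j ^ r j = 1) (hi₂ : r i₂ = p)
    (hrp : ∀ j, j ≠ i₁ → j ≠ i₂ → r j ≠ p) (hr3 : ∀ j, j ≠ i₁ → j ≠ i₂ → r j ≠ 3) (A : Submodule F (V8 F))
    (hA : ∀ v, v ∈ A ↔ ∀ j, j ≠ i₁ → j ≠ i₂ → (M j).1 v = v) (hA4 : finrank F A = 4)
    (hAu : ∃ v ∈ A, (M i₂).1 v ≠ v) : False := by
  have hMa : ∀ j, j ≠ i₁ → Au (M j) := fun j hj => au_of (hT j hj) (hL j hj)
  have hcc : ∀ i j, i ≠ i₁ → j ≠ i₁ → ∀ v, (M i).1 ((M j).1 v) = (M j).1 ((M i).1 v) := fun i j hi hj =>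
    comm_aut hG hσ (hMa i hi) (hMa j hj) (hl i hi) (hl j hj) (hc i j)
  have hA1 : one8 F ∈ A := (hA _).2 fun j hj _ => (hMa j hj).one
  have hAm : ∀ x ∈ A, ∀ y ∈ A, omul x y ∈ A := by
    intro x hx y hy
    rw [hA] at hx hy ⊢
    intro j hj1 hj2
    rw [(hMa j hj1).mul, hx j hj1 hj2, hy j hj1 hj2]
  have hAn : ∀ x ∈ A, (∀ y ∈ A, polar (plusForm 4 F) x y = 0) → x = 0 := by
    intro v hv h
    refine H188.RC.IDNormal.nondeg_fix (p := p) (κ := {j : ι // j ≠ i₁ ∧ j ≠ i₂}) (fun j => M j) (fun j => r j)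
      (fun j => hr j) (fun j => hrp j j.2.1 j.2.2) (fun j => (hMa j j.2.1).lin) (fun j => hMr j j.2.1) ?_ v ?_ ?_
    · intro i j
      apply Subtype.ext
      ext1 w
      exact hcc i j i.2.1 j.2.1 w
    · intro j
      exact (hA v).1 hv j j.2.1 j.2.2
    · intro y hy
      exact h y ((hA y).2 fun j h1 h2 => hy ⟨j, h1, h2⟩)
  have hUA : ∀ v ∈ A, (M i₂).1 v ∈ A := by
    intro v hv
    rw [hA]
    intro j hj1 hj2
    rw [hcc j i₂ hj1 h12, (hA v).1 hv j hj1 hj2]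
  have hUp : M i₂ ^ p = 1 := by rw [← hi₂]; exact hMr i₂ h12
  obtain ⟨φ, h2, h3, h4, h5, h6⟩ := H188.RC.IDNormal.exists_normal A hA4 hA1 hAm hAn (M i₂) (hT i₂ h12)
    (hMa i₂ h12).lin hUp hUA hAu
  exact box_iD_of hG hE hσ hp3 hr hx hx1 hc hcov h12 h1 hl hT hL hMr hrp hr3 A hA hA4 ⟨h2, h3⟩ h4 h5 h6

end Cfsg.Agent.H237.RC.ID
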