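import Cfsg.Agent.H237.RC.IDDef

/-!
# S3510, triality type (i), box iD: explicit elements of `E Q`

* `ec c`, `fc c` : root elements of the factor `L₃` (trivial on `H0`); `tor s` the torus;
* `Dc c` : root elements of `L₁` (trivial on the complement of `H0`);
* `Zc c` : the rotation `x ↦ (1 + c l₁) x (1 + c l₁)`.
-/

set_option autoImplicit false
open Cfsg

namespace Cfsg.Agent.H237.RC.ID

open Module QuadraticMap Cfsg.Agent.LieClassical.OrthCore Cfsg.Agent.LieClassical.OrthTrans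
  Cfsg.Agent.ClassicalGeometry.OrthSemi Cfsg.Agent.LieClassical.QuadForms
  Cfsg.Agent.ClassicalGeometry.TrialityOct Cfsg.Agent.ClassicalGeometry.Triality
  Cfsg.Agent.H198.TriBase Cfsg.Agent.H752.SemiNormal Cfsg.Agent.AutOrth.SemiSim

variable {F : Type*} [Field F]

/-- the orthogonal complement `⟨l₂, l₃, r₂, r₃⟩` of `H0` -/
def H1 (F : Type*) [Field F] : Submodule F (V8 F) where
  carrier := {x | x (.inl 0) = 0 ∧ x (.inl 1) = 0 ∧ x (.inr 0) = 0 ∧ x (.inr 1) = 0}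
  add_mem' := by
    rintro x y ⟨h1, h2, h3, h4⟩ ⟨k1, k2, k3, k4⟩
    exact ⟨by rw [Pi.add_apply, h1, k1, add_zero], by rw [Pi.add_apply, h2, k2, add_zero],
      by rw [Pi.add_apply, h3, k3, add_zero], by rw [Pi.add_apply, h4, k4, add_zero]⟩
  zero_mem' := ⟨rfl, rfl, rfl, rfl⟩
  smul_mem' := by
    rintro c x ⟨h1, h2, h3, h4⟩
    exact ⟨by rw [Pi.smul_apply, h1, smul_zero], by rw [Pi.smul_apply, h2, smul_zero],
      by rw [Pi.smul_apply, h3, smul_zero], by rw [Pi.smul_apply, h4, smul_zero]⟩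

/-! ### The factor `L₃` -/

theorem q_r2 : plusForm 4 F (bs (.inr 2)) = 0 := by rw [norm8]; simp
theorem q_l2 : plusForm 4 F (bs (.inl 2)) = 0 := by rw [norm8]; simp
theorem q_r0 : plusForm 4 F (bs (.inr 0)) = 0 := by rw [norm8]; simp
theorem q_l1 : plusForm 4 F (bs (.inl 1)) = 0 := by rw [norm8]; simp

theorem p_r23 (c : F) : polar (plusForm 4 F) (bs (.inr 2)) (c • bs (.inr 3)) = 0 := by
  rw [polar8]; simp
theorem p_l23 (c : F) : polar (plusForm 4 F) (bs (.inl 2)) (c • bs (.inl 3)) = 0 := by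
  rw [polar8]; simp
theorem p_r01 (c : F) : polar (plusForm 4 F) (bs (.inr 0)) (c • bs (.inr 1)) = 0 := by
  rw [polar8]; simp
theorem p_l1one (c : F) : polar (plusForm 4 F) (bs (.inl 1)) (c • one8 F) = 0 := by
  rw [polar8]; simp [one8]

/-- `l₂ ↦ l₂ + c r₃`, `l₃ ↦ l₃ - c r₂` -/
def ec (c : F) : ↥(E (plusForm 4 F)) := sg _ (bs (.inr 2)) (c • bs (.inr 3)) q_r2 (p_r23 c)

/-- `r₂ ↦ r₂ + c l₃`, `r₃ ↦ r₃ - c l₂` -/
def fc (c : F) : ↥(E (plusForm 4 F)) := sg _ (bs (.inl 2)) (c • bs (.inl 3)) q_l2 (p_l23 c)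

/-- `l₀ ↦ l₀ + c r₁`, `l₁ ↦ l₁ - c r₀` -/
def Dc (c : F) : ↥(E (plusForm 4 F)) := sg _ (bs (.inr 0)) (c • bs (.inr 1)) q_r0 (p_r01 c)

/-- `x ↦ (1 + c l₁) x (1 + c l₁)` -/
def Zc (c : F) : ↥(E (plusForm 4 F)) := sg _ (bs (.inl 1)) ((-c) • one8 F) q_l1 (p_l1one _)

theorem ec_apply (c : F) (v : V8 F) : (ec c : V8 F ≃ₗ[F] V8 F) v =
    v + (c * v (.inl 2)) • bs (.inr 3) - (c * v (.inl 3)) • bs (.inr 2) := by
  rw [ec, sg_apply, polar8, polar8, norm8]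
  apply ext8 <;> simp <;> ring

theorem fc_apply (c : F) (v : V8 F) : (fc c : V8 F ≃ₗ[F] V8 F) v =
    v + (c * v (.inr 2)) • bs (.inl 3) - (c * v (.inr 3)) • bs (.inl 2) := by
  rw [fc, sg_apply, polar8, polar8, norm8]
  apply ext8 <;> simp <;> ring

theorem Dc_apply (c : F) (v : V8 F) : (Dc c : V8 F ≃ₗ[F] V8 F) v =
    v + (c * v (.inl 0)) • bs (.inr 1) - (c * v (.inl 1)) • bs (.inr 0) := by
  rw [Dc, sg_apply, polar8, polar8, norm8]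
  apply ext8 <;> simp <;> ring

theorem Zc_apply (c : F) (v : V8 F) : (Zc c : V8 F ≃ₗ[F] V8 F) v =
    omul (omul (one8 F + c • bs (.inl 1)) v) (one8 F + c • bs (.inl 1)) := by
  rw [Zc, sg_apply, polar8, polar8, norm8]
  apply ext8 <;> simp [omul_l0, omul_l1, omul_l2, omul_l3, omul_r0, omul_r1, omul_r2, omul_r3, one8] <;> ring

/-- the torus of `L₃` -/
def tor (s : F) : ↥(E (plusForm 4 F)) := ec s⁻¹ * fc s * ec (s⁻¹ - 1) * fc (-1 : F) * ec (-1 : F)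

theorem tor_apply {s : F} (hs : s ≠ 0) (v : V8 F) : (tor s : V8 F ≃ₗ[F] V8 F) v =
    Sum.elim ![v (.inl 0), v (.inl 1), s * v (.inl 2), s * v (.inl 3)]
      ![v (.inr 0), v (.inr 1), s⁻¹ * v (.inr 2), s⁻¹ * v (.inr 3)] := by
  have h : (tor s : V8 F ≃ₗ[F] V8 F) v = (ec s⁻¹ : V8 F ≃ₗ[F] V8 F) ((fc s : V8 F ≃ₗ[F] V8 F)
    ((ec (s⁻¹ - 1) : V8 F ≃ₗ[F] V8 F) ((fc (-1 : F) : V8 F ≃ₗ[F] V8 F) ((ec (-1 : F) : V8 F ≃ₗ[F] V8 F) v)))) := rfl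
  rw [h]
  simp only [ec_apply, fc_apply]
  apply ext8 <;> simp <;> field_simp <;> ring

/-! ### Automorphisms -/

/-- a linear octonion automorphism -/
structure Au (M : G8 F) : Prop where
  tri : TriS M M M
  lin : IsSS (plusForm 4 F) (RingEquiv.refl F) 1 M.1

namespace Au

variable {M U : G8 F}

theorem mul (h : Au M) (x y : V8 F) : M.1 (omul x y) = omul (M.1 x) (M.1 y) := h.tri x y

theorem smul (h : Au M) (c : F) (x : V8 F) : M.1 (c • x) = c • M.1 x := h.lin.smul c x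

theorem polar (h : Au M) (x y : V8 F) :
    QuadraticMap.polar (plusForm 4 F) (M.1 x) (M.1 y) = QuadraticMap.polar (plusForm 4 F) x y := by
  rw [h.lin.polar, one_mul, RingEquiv.refl_apply]

theorem one (h : Au M) : M.1 (one8 F) = one8 F := H198.TriDia.aut_one h.tri

end Au

theorem c_l (v : V8 F) (i : Fin 4) : v (.inl i) = polar (plusForm 4 F) v (bs (.inr i)) := by
  rw [polar8]
  fin_cases i <;> simp

theorem c_r (v : V8 F) (i : Fin 4) : v (.inr i) = polar (plusForm 4 F) v (bs (.inl i)) := by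
  rw [polar8]
  fin_cases i <;> simp

theorem l0_mul (v : V8 F) : omul (bs (.inl 0)) v = Sum.elim ![v (.inl 0), v (.inl 1), v (.inl 2), v (.inl 3)] ![0, 0, 0, 0] := by
  apply ext8 <;> simp [omul_l0, omul_l1, omul_l2, omul_l3, omul_r0, omul_r1, omul_r2, omul_r3]

theorem r0_mul (v : V8 F) : omul (bs (.inr 0)) v = Sum.elim ![0, 0, 0, 0] ![v (.inr 0), v (.inr 1), v (.inr 2), v (.inr 3)] := by
  apply ext8 <;> simp [omul_l0, omul_l1, omul_l2, omul_l3, omul_r0, omul_r1, omul_r2, omul_r3]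

theorem l1_mul (v : V8 F) : omul (bs (.inl 1)) v =
    Sum.elim ![-v (.inr 1), v (.inr 0), 0, 0] ![0, 0, v (.inl 3), -v (.inl 2)] := by
  apply ext8 <;> simp [omul_l0, omul_l1, omul_l2, omul_l3, omul_r0, omul_r1, omul_r2, omul_r3]

theorem one_eq : one8 F = bs (.inl 0) + bs (.inr 0) := by
  apply ext8 <;> simp [one8]

/-- `M` is the identity on `H0` -/
structure Fx0 (M : G8 F) : Prop extends Au M where
  l1 : M.1 (bs (.inl 1)) = bs (.inl 1)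
  r1 : M.1 (bs (.inr 1)) = bs (.inr 1)
  l0 : M.1 (bs (.inl 0)) = bs (.inl 0)
  r0 : M.1 (bs (.inr 0)) = bs (.inr 0)

/-- the plane `⟨l₂, l₃⟩` -/
def WL (F : Type*) [Field F] (v : V8 F) : Prop :=
  v (.inl 0) = 0 ∧ v (.inl 1) = 0 ∧ v (.inr 0) = 0 ∧ v (.inr 1) = 0 ∧ v (.inr 2) = 0 ∧ v (.inr 3) = 0

/-- the plane `⟨r₂, r₃⟩` -/
def WR (F : Type*) [Field F] (v : V8 F) : Prop :=
  v (.inl 0) = 0 ∧ v (.inl 1) = 0 ∧ v (.inr 0) = 0 ∧ v (.inr 1) = 0 ∧ v (.inl 2) = 0 ∧ v (.inl 3) = 0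

theorem Fx0.wl {M : G8 F} (h : Fx0 M) {v : V8 F} (hv : WL F v) : WL F (M.1 v) := by
  obtain ⟨h0, h1, k0, k1, k2, k3⟩ := hv
  have e1 : omul (bs (.inl 0)) v = v := by
    rw [l0_mul]
    apply ext8 <;> simp [h0, h1, k0, k1, k2, k3]
  have e2 : omul (bs (.inl 0)) (M.1 v) = M.1 v := by
    conv_rhs => rw [← e1]
    rw [h.mul, h.l0]
  rw [l0_mul] at e2
  have f := fun i => congrFun e2 (.inr i)
  refine ⟨?_, ?_, (f 0).symm, (f 1).symm, (f 2).symm, (f 3).symm⟩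
  · rw [c_l (M.1 v) 0, ← h.r0, h.polar, ← c_l v 0, h0]
  · rw [c_l (M.1 v) 1, ← h.r1, h.polar, ← c_l v 1, h1]

theorem Fx0.wr {M : G8 F} (h : Fx0 M) {v : V8 F} (hv : WR F v) : WR F (M.1 v) := by
  obtain ⟨h0, h1, k0, k1, k2, k3⟩ := hv
  have e1 : omul (bs (.inr 0)) v = v := by
    rw [r0_mul]
    apply ext8 <;> simp [h0, h1, k0, k1, k2, k3]
  have e2 : omul (bs (.inr 0)) (M.1 v) = M.1 v := by
    conv_rhs => rw [← e1]
    rw [h.mul, h.r0]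
  rw [r0_mul] at e2
  have f := fun i => congrFun e2 (.inl i)
  refine ⟨(f 0).symm, (f 1).symm, ?_, ?_, (f 2).symm, (f 3).symm⟩
  · rw [c_r (M.1 v) 0, ← h.l0, h.polar, ← c_r v 0, k0]
  · rw [c_r (M.1 v) 1, ← h.l1, h.polar, ← c_r v 1, k1]

/-- the three parts of a vector -/
def pH (v : V8 F) : V8 F := Sum.elim ![v (.inl 0), v (.inl 1), 0, 0] ![v (.inr 0), v (.inr 1), 0, 0]
/-- the part in `⟨l₂, l₃⟩` -/
def pL (v : V8 F) : V8 F := Sum.elim ![0, 0, v (.inl 2), v (.inl 3)] ![0, 0, 0, 0]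
/-- the part in `⟨r₂, r₃⟩` -/
def pR (v : V8 F) : V8 F := Sum.elim ![0, 0, 0, 0] ![0, 0, v (.inr 2), v (.inr 3)]

theorem decomp3 (v : V8 F) : v = pH v + pL v + pR v := by
  apply ext8 <;> simp [pH, pL, pR]

theorem wl_pL (v : V8 F) : WL F (pL v) := ⟨rfl, rfl, rfl, rfl, rfl, rfl⟩

theorem wr_pR (v : V8 F) : WR F (pR v) := ⟨rfl, rfl, rfl, rfl, rfl, rfl⟩

theorem pH_eq (v : V8 F) : pH v = v (.inl 0) • bs (.inl 0) + v (.inl 1) • bs (.inl 1) + v (.inr 0) • bs (.inr 0) +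
    v (.inr 1) • bs (.inr 1) := by
  apply ext8 <;> simp [pH]

theorem Fx0.map_pH {M : G8 F} (h : Fx0 M) (v : V8 F) : M.1 (pH v) = pH v := by
  rw [pH_eq, h.lin.add, h.lin.add, h.lin.add, h.smul, h.smul, h.smul, h.smul, h.l0, h.l1, h.r0, h.r1]

theorem tor_pH {s : F} (hs : s ≠ 0) (v : V8 F) : (tor s : V8 F ≃ₗ[F] V8 F) (pH v) = pH v := by
  rw [tor_apply hs]
  apply ext8 <;> simp [pH]

theorem tor_wl {s : F} (hs : s ≠ 0) {v : V8 F} (hv : WL F v) : (tor s : V8 F ≃ₗ[F] V8 F) v = s • v := by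
  obtain ⟨h0, h1, k0, k1, k2, k3⟩ := hv
  rw [tor_apply hs]
  apply ext8 <;> simp [h0, h1, k0, k1, k2, k3]

theorem tor_wr {s : F} (hs : s ≠ 0) {v : V8 F} (hv : WR F v) : (tor s : V8 F ≃ₗ[F] V8 F) v = s⁻¹ • v := by
  obtain ⟨h0, h1, k0, k1, k2, k3⟩ := hv
  rw [tor_apply hs]
  apply ext8 <;> simp [h0, h1, k0, k1, k2, k3]

/-- the torus commutes with `M` -/
theorem Fx0.tor_comm {M : G8 F} (h : Fx0 M) {s : F} (hs : s ≠ 0) (v : V8 F) :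
    M.1 ((tor s : V8 F ≃ₗ[F] V8 F) v) = (tor s : V8 F ≃ₗ[F] V8 F) (M.1 v) := by
  have a1 : ∀ a b, M.1 ((tor s : V8 F ≃ₗ[F] V8 F) (a + b)) =
      M.1 ((tor s : V8 F ≃ₗ[F] V8 F) a) + M.1 ((tor s : V8 F ≃ₗ[F] V8 F) b) := by
    intro a b
    rw [map_add (tor s : V8 F ≃ₗ[F] V8 F), h.lin.add]
  have a2 : ∀ a b, (tor s : V8 F ≃ₗ[F] V8 F) (M.1 (a + b)) =
      (tor s : V8 F ≃ₗ[F] V8 F) (M.1 a) + (tor s : V8 F ≃ₗ[F] V8 F) (M.1 b) := by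
    intro a b
    rw [h.lin.add, map_add (tor s : V8 F ≃ₗ[F] V8 F)]
  have e1 := tor_pH hs v
  have e2 := tor_wl hs (wl_pL v)
  have e3 := tor_wr hs (wr_pR v)
  have e4 := tor_wl hs (h.wl (wl_pL v))
  have e5 := tor_wr hs (h.wr (wr_pR v))
  rw [decomp3 v, a1, a1, a2, a2, e1, e2, e3, h.smul, h.smul, h.map_pH, e1, e4, e5]

/-- the unipotent member: `U l₁ = l₁`, `U l₀ = l₀ - l₁` -/
structure Uu (U : G8 F) : Prop extends Au U where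
  l1 : U.1 (bs (.inl 1)) = bs (.inl 1)
  l0 : U.1 (bs (.inl 0)) = bs (.inl 0) - bs (.inl 1)
  H : ∀ x ∈ H0 F, U.1 x ∈ H0 F

theorem Uu.r0 {U : G8 F} (h : Uu U) : U.1 (bs (.inr 0)) = bs (.inr 0) + bs (.inl 1) := by
  have h1 := h.one
  rw [one_eq, h.lin.add, h.l0] at h1
  have : U.1 (bs (.inr 0)) = (bs (.inl 0) - bs (.inl 1) + U.1 (bs (.inr 0))) - (bs (.inl 0) - bs (.inl 1)) := by
    abel
  rw [this, h1]
  abel

theorem Uu.H1 {U : G8 F} (h : Uu U) {v : V8 F} (hv : v ∈ H1 F) : U.1 v ∈ ID.H1 F := by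
  obtain ⟨h0, h1, k0, k1⟩ := hv
  have e1 : polar (plusForm 4 F) (U.1 v) (bs (.inl 1)) = 0 := by
    rw [← h.l1, h.polar, ← c_r v 1, k1]
  have e2 : polar (plusForm 4 F) (U.1 v) (bs (.inl 0)) = 0 := by
    have : (bs (.inl 0) : V8 F) = U.1 (bs (.inl 0)) + bs (.inl 1) := by rw [h.l0]; abel
    rw [this, polar_add_right, e1, h.polar, ← c_r v 0, k0, add_zero]
  have e3 : polar (plusForm 4 F) (U.1 v) (bs (.inr 0)) = 0 := by
    have : (bs (.inr 0) : V8 F) = U.1 (bs (.inr 0)) - bs (.inl 1) := by rw [h.r0]; abel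
    rw [this, polar_sub_right, e1, h.polar, ← c_l v 0, h0, sub_zero]
  have e4 : polar (plusForm 4 F) (U.1 v) (bs (.inr 1)) = 0 := by
    have f := h.H (bs (.inr 1)) ⟨by simp, by simp, by simp, by simp⟩
    set y := U.1 (bs (.inr 1)) with hy
    have g1 : y (.inr 1) = 1 := by
      rw [c_r y 1, ← h.l1, hy, h.polar, ← c_r (bs (.inr 1)) 1]
      simp
    obtain ⟨f1, f2, f3, f4⟩ := f
    have g2 : (bs (.inr 1) : V8 F) = y - (y (.inl 0) • bs (.inl 0) + y (.inl 1) • bs (.inl 1) +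
        y (.inr 0) • bs (.inr 0)) := by
      apply ext8 <;> simp [f1, f2, f3, f4, g1]
    have g3 : polar (plusForm 4 F) (U.1 v) y = 0 := by
      rw [hy, h.polar, ← c_l v 1, h1]
    rw [g2, polar_sub_right, g3, polar_add_right, polar_add_right, polar_smul_right, polar_smul_right,
      polar_smul_right, e1, e2, e3]
    simp
  exact ⟨(c_l (U.1 v) 0).trans e3, (c_l (U.1 v) 1).trans e4, (c_r (U.1 v) 0).trans e2, (c_r (U.1 v) 1).trans e1⟩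

theorem Uu.wr {U : G8 F} (h : Uu U) {v : V8 F} (hv : WR F v) : WR F (U.1 v) := by
  obtain ⟨h0, h1, k0, k1, k2, k3⟩ := hv
  have e1 : omul (bs (.inr 0)) v = v := by
    rw [r0_mul]
    apply ext8 <;> simp [h0, h1, k0, k1, k2, k3]
  have e2 : omul (bs (.inr 0) + bs (.inl 1)) (U.1 v) = U.1 v := by
    conv_rhs => rw [← e1]
    rw [h.mul, h.r0]
  obtain ⟨f0, f1, g0, g1⟩ := h.H1 (v := v) ⟨h0, h1, k0, k1⟩
  rw [add_omul, r0_mul, l1_mul] at e2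
  refine ⟨f0, f1, g0, g1, ?_, ?_⟩
  · have := congrFun e2 (.inl 2)
    simpa using this.symm
  · have := congrFun e2 (.inl 3)
    simpa using this.symm

theorem Uu.wl {U : G8 F} (h : Uu U) {v : V8 F} (hv : WL F v) :
    (U.1 v) (.inl 0) = 0 ∧ (U.1 v) (.inl 1) = 0 ∧ (U.1 v) (.inr 0) = 0 ∧ (U.1 v) (.inr 1) = 0 ∧
      (U.1 v) (.inr 2) = -(U.1 v) (.inl 3) ∧ (U.1 v) (.inr 3) = (U.1 v) (.inl 2) := by
  obtain ⟨h0, h1, k0, k1, k2, k3⟩ := hv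
  have e1 : omul (bs (.inl 0)) v = v := by
    rw [l0_mul]
    apply ext8 <;> simp [h0, h1, k0, k1, k2, k3]
  have e2 : omul (bs (.inl 0) - bs (.inl 1)) (U.1 v) = U.1 v := by
    conv_rhs => rw [← e1]
    rw [h.mul, h.l0]
  obtain ⟨f0, f1, g0, g1⟩ := h.H1 (v := v) ⟨h0, h1, k0, k1⟩
  have e3 : omul (bs (.inl 0) - bs (.inl 1)) (U.1 v) =
      omul (bs (.inl 0)) (U.1 v) - omul (bs (.inl 1)) (U.1 v) := by
    rw [sub_eq_add_neg, add_omul, ← neg_one_smul F (bs (.inl 1)), smul_omul, neg_one_smul, ← sub_eq_add_neg]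
  rw [e3, l0_mul, l1_mul] at e2
  refine ⟨f0, f1, g0, g1, ?_, ?_⟩
  · have := congrFun e2 (.inr 2)
    simpa using this.symm
  · have := congrFun e2 (.inr 3)
    simpa using this.symm

/-- the commutator of the torus with `U` -/
theorem Uu.tor_comm {U : G8 F} (h : Uu U) {s : F} (hs : s ≠ 0) (v : V8 F) :
    (tor s : V8 F ≃ₗ[F] V8 F) (U.1 v) =
      (ec (s⁻¹ * s⁻¹ - 1) : V8 F ≃ₗ[F] V8 F) (U.1 ((tor s : V8 F ≃ₗ[F] V8 F) v)) := by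
  have a0 : (tor s : V8 F ≃ₗ[F] V8 F) (U.1 (pH v)) =
      (ec (s⁻¹ * s⁻¹ - 1) : V8 F ≃ₗ[F] V8 F) (U.1 ((tor s : V8 F ≃ₗ[F] V8 F) (pH v))) := by
    rw [tor_pH hs]
    have f := h.H (pH v) ⟨rfl, rfl, rfl, rfl⟩
    obtain ⟨f1, f2, f3, f4⟩ := f
    rw [tor_apply hs, ec_apply, f1, f2, f3, f4]
    apply ext8 <;> simp [f1, f2, f3, f4]
  have a1 : (tor s : V8 F ≃ₗ[F] V8 F) (U.1 (pL v)) =
      (ec (s⁻¹ * s⁻¹ - 1) : V8 F ≃ₗ[F] V8 F) (U.1 ((tor s : V8 F ≃ₗ[F] V8 F) (pL v))) := by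
    rw [tor_wl hs (wl_pL v), h.smul, map_smul]
    obtain ⟨f0, f1, g0, g1, g2, g3⟩ := h.wl (wl_pL v)
    rw [tor_apply hs, ec_apply]
    apply ext8 <;> simp [f0, f1, g0, g1, g2, g3] <;> field_simp <;> ring
  have a2 : (tor s : V8 F ≃ₗ[F] V8 F) (U.1 (pR v)) =
      (ec (s⁻¹ * s⁻¹ - 1) : V8 F ≃ₗ[F] V8 F) (U.1 ((tor s : V8 F ≃ₗ[F] V8 F) (pR v))) := by
    rw [tor_wr hs (wr_pR v), h.smul, map_smul, tor_wr hs (h.wr (wr_pR v))]
    obtain ⟨f0, f1, g0, g1, g2, g3⟩ := h.wr (wr_pR v)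
    rw [ec_apply, g2, g3]
    simp
  have b1 : ∀ a b, (tor s : V8 F ≃ₗ[F] V8 F) (U.1 (a + b)) =
      (tor s : V8 F ≃ₗ[F] V8 F) (U.1 a) + (tor s : V8 F ≃ₗ[F] V8 F) (U.1 b) := by
    intro a b
    rw [h.lin.add, map_add (tor s : V8 F ≃ₗ[F] V8 F)]
  have b2 : ∀ a b, (ec (s⁻¹ * s⁻¹ - 1) : V8 F ≃ₗ[F] V8 F) (U.1 ((tor s : V8 F ≃ₗ[F] V8 F) (a + b))) =
      (ec (s⁻¹ * s⁻¹ - 1) : V8 F ≃ₗ[F] V8 F) (U.1 ((tor s : V8 F ≃ₗ[F] V8 F) a)) +
      (ec (s⁻¹ * s⁻¹ - 1) : V8 F ≃ₗ[F] V8 F) (U.1 ((tor s : V8 F ≃ₗ[F] V8 F) b)) := by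
    intro a b
    rw [map_add (tor s : V8 F ≃ₗ[F] V8 F), h.lin.add, map_add (ec (s⁻¹ * s⁻¹ - 1) : V8 F ≃ₗ[F] V8 F)]
  rw [decomp3 v, b1, b1, b2, b2, a0, a1, a2]

end Cfsg.Agent.H237.RC.ID
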