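import Cfsg.Agent.H237.RC.IDSmall

/-!
# S3510, triality type (i), box iD: reduction to the normal form
-/

set_option autoImplicit false
open Cfsg

namespace Cfsg.Agent.H237.RC.ID

open Module QuadraticMap MulAction Cfsg.Agent.LieClassical.OrthCore Cfsg.Agent.LieClassical.OrthTrans
  Cfsg.Agent.LieClassical.OrthSimple Cfsg.Agent.ClassicalGeometry.OrthAut1
  Cfsg.Agent.ClassicalGeometry.OrthSemi Cfsg.Agent.LieClassical.QuadForms
  Cfsg.Agent.ClassicalGeometry.TrialityOct Cfsg.Agent.ClassicalGeometry.Triality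
  Cfsg.Agent.H198.TriBase Cfsg.Agent.H198.TriAut Cfsg.Agent.H752.SemiNormal Cfsg.Agent.AutOrth.SemiSim
  Cfsg.Agent.H106.RC Cfsg.Agent.H93.RC Cfsg.Agent.H566.RC

theorem au_of {F : Type*} [Field F] {M : G8 F} (h : TriS M M M) (hl : H198.TriDia.IsLin M) : Au M := by
  obtain ⟨c, hc⟩ := hl
  have h1 := H198.TriDia.aut_mult h hc
  subst h1
  exact ⟨h, hc⟩

theorem Au.mulG {F : Type*} [Field F] {M L : G8 F} (h : Au M) (h' : Au L) : Au (M * L) := by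
  refine ⟨h.tri.mul h'.tri, ?_⟩
  have h1 := h.lin.mul h'.lin
  have e1 : (1 : F) * (RingEquiv.refl F) 1 = 1 := by simp
  rw [e1] at h1
  exact h1

theorem Au.invG {F : Type*} [Field F] {M : G8 F} (h : Au M) : Au M⁻¹ := by
  refine ⟨h.tri.inv, ?_⟩
  have h1 := h.lin.inv
  have e1 : (RingEquiv.refl F).symm (1 : F)⁻¹ = 1 := by simp
  rw [e1] at h1
  exact h1

/-- lifts of commuting elements which are automorphisms commute -/
theorem comm_aut {F : Type} [Field F] {G : Type} [Group G] {N : Subgroup G} {σ : P8 F →* G}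
    (hG : Good (plusForm 4 F)) (hσ : Rp (plusForm 4 F) N σ) {x y : G} {M L : G8 F} (h : Au M) (h' : Au L)
    (hx : Lf (up σ) x M) (hy : Lf (up σ) y L) (hxy : x * y = y * x) (v : V8 F) : M.1 (L.1 v) = L.1 (M.1 v) := by
  obtain ⟨a, ha, h1⟩ := hx.comm hG hσ.rep hy hxy
  have h2 := h1 (one8 F)
  rw [h'.one, h.one, h'.one] at h2
  have h3 := congrFun h2 (.inl 0)
  have h4 : a = 1 := by simpa [one8] using h3.symm
  rw [h1, h4, one_smul]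

variable {F G Ω : Type} [Field F] [Finite F] [Group G] [Finite G] [MulAction G Ω] [Nonempty Ω]
  {N : Subgroup G} {σ : P8 F →* G}

/-- reduction to the normal form -/
theorem box_iD_of (hG : Good (plusForm 4 F)) (hE : Env G Ω N)
    (hσ : Rp (plusForm 4 F) N σ) {p : ℕ} [CharP F p] (hp3 : p ≠ 3)
    {ι : Type} [Finite ι] [DecidableEq ι] {x : ι → G} {r : ι → ℕ} (hr : ∀ i, (r i).Prime)
    (hx : ∀ i, x i ^ r i = 1) (hx1 : ∀ i, x i ≠ 1) (hc : ∀ i j, x i * x j = x j * x i) (hcov : Cov Ω x)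
    {i₁ i₂ : ι} (h12 : i₂ ≠ i₁) (h1 : La σ (x i₁) (rho hG)) {M : ι → G8 F}
    (hl : ∀ j, j ≠ i₁ → Lf (up σ) (x j) (M j)) (hT : ∀ j, j ≠ i₁ → TriS (M j) (M j) (M j))
    (hL : ∀ j, j ≠ i₁ → H198.TriDia.IsLin (M j)) (hMr : ∀ j, j ≠ i₁ → M j ^ r j = 1)
    (hrp : ∀ j, j ≠ i₁ → j ≠ i₂ → r j ≠ p)
    (hr3 : ∀ j, j ≠ i₁ → j ≠ i₂ → r j ≠ 3) (A : Submodule F (V8 F))
    (hA : ∀ v, v ∈ A ↔ ∀ j, j ≠ i₁ → j ≠ i₂ → (M j).1 v = v) (hA4 : finrank F A = 4)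
    {φ : G8 F} (hφ : Au φ) (hφA : ∀ v, φ.1 v ∈ H0 F ↔ v ∈ A)
    (hφ0 : φ.1 ((M i₂).1 (φ⁻¹.1 (bs (.inl 0)))) = bs (.inl 0) - bs (.inl 1))
    (hφ1 : φ.1 ((M i₂).1 (φ⁻¹.1 (bs (.inl 1)))) = bs (.inl 1)) : False := by
  have h3 : (3 : F) ≠ 0 := by
    intro h
    have h1 : ((3 : ℕ) : F) = 0 := by exact_mod_cast h
    rw [CharP.cast_eq_zero_iff F p] at h1
    exact hp3 ((Nat.prime_dvd_prime_iff_eq (CharP.char_is_prime F p) Nat.prime_three).1 h1)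
  have hMa : ∀ j, j ≠ i₁ → Au (M j) := fun j hj => au_of (hT j hj) (hL j hj)
  have hinv : ∀ v, φ.1 (φ⁻¹.1 v) = v := fun v => φ.1.apply_symm_apply v
  have hinv' : ∀ v, φ⁻¹.1 (φ.1 v) = v := fun v => φ.1.symm_apply_apply v
  have hmem : ∀ v ∈ H0 F, φ⁻¹.1 v ∈ A := fun v hv => (hφA _).1 (by rwa [hinv])
  -- the new lifts
  have hap : ∀ j v, (φ * M j * φ⁻¹).1 v = φ.1 ((M j).1 (φ⁻¹.1 v)) := fun j v => rfl
  have hfx : ∀ j, j ≠ i₁ → j ≠ i₂ → ∀ v ∈ H0 F, (φ * M j * φ⁻¹).1 v = v := by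
    intro j hj1 hj2 v hv
    rw [hap, (hA _).1 (hmem v hv) j hj1 hj2, hinv]
  have hau : ∀ j, j ≠ i₁ → Au (φ * M j * φ⁻¹) := fun j hj => (hφ.mulG (hMa j hj)).mulG hφ.invG
  have hFx : ∀ j, j ≠ i₁ → j ≠ i₂ → Fx0 (φ * M j * φ⁻¹) := by
    intro j hj1 hj2
    exact ⟨hau j hj1, hfx j hj1 hj2 _ ⟨by simp, by simp, by simp, by simp⟩,
      hfx j hj1 hj2 _ ⟨by simp, by simp, by simp, by simp⟩, hfx j hj1 hj2 _ ⟨by simp, by simp, by simp, by simp⟩,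
      hfx j hj1 hj2 _ ⟨by simp, by simp, by simp, by simp⟩⟩
  have hUA : ∀ v ∈ A, (M i₂).1 v ∈ A := by
    intro v hv
    rw [hA]
    intro j hj1 hj2
    rw [comm_aut hG hσ (hMa j hj1) (hMa i₂ h12) (hl j hj1) (hl i₂ h12) (hc j i₂), (hA v).1 hv j hj1 hj2]
  have hUu : Uu (φ * M i₂ * φ⁻¹) := by
    refine ⟨hau i₂ h12, hφ1, hφ0, ?_⟩
    intro v hv
    rw [hap, hφA]
    exact hUA _ (hmem v hv)
  -- change of `σ`
  obtain ⟨σ', hσ', hch⟩ := hσ.change (Psi _ φ)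
  have h1' : La σ' (x i₁) (rho hG) := by
    have := hch _ _ h1
    rw [← H198.TriDia.rho_comm hG hφ.tri, mul_inv_cancel_right] at this
    exact this
  have hl' : ∀ j, j ≠ i₁ → Lf (up σ') (x j) (φ * M j * φ⁻¹) := by
    intro j hj
    rw [← La.lf]
    have := hch _ _ (La.lf.2 (hl j hj))
    rwa [← map_mul, ← map_inv, ← map_mul] at this
  -- a member `j₀`
  obtain ⟨j₀, hj1, hj2⟩ : ∃ j, j ≠ i₁ ∧ j ≠ i₂ := by
    by_contra hcon
    push Not at hcon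
    have hAt : A = ⊤ := by
      rw [eq_top_iff]
      rintro v -
      rw [hA]
      intro j hj1 hj2
      exact (hj2 (hcon j hj1)).elim
    rw [hAt, finrank_top, Module.finrank_fintype_fun_eq_card] at hA4
    simp at hA4
  obtain ⟨s, hs, hs2⟩ := exists_s (p := p) h3 (hFx j₀ hj1 hj2) (hr j₀) (hr3 j₀ hj1 hj2) (hrp j₀ hj1 hj2)
    (by rw [conj_pow, hMr j₀ hj1, mul_one, mul_inv_cancel])
    (by
      intro h
      apply hx1 j₀
      rw [(hl' j₀ hj1).eq_one_iff hG hE hσ'.rep]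
      refine ⟨1, one_ne_zero, fun v => ?_⟩
      rw [h, one_smul]
      rfl)
  exact box_normal hG hE hσ' (p := p) h3 hr hx hx1 hc hcov h12 h1' hl' hUu hFx hrp hs hs2

end Cfsg.Agent.H237.RC.ID
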