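import Cfsg.Agent.H237.RC.IDMain

/-!
# S3510, triality type (i), box iD: the field has at least four elements
-/

set_option autoImplicit false
open Cfsg

namespace Cfsg.Agent.H237.RC.ID

open Module QuadraticMap Cfsg.Agent.LieClassical.OrthCore Cfsg.Agent.LieClassical.OrthTrans
  Cfsg.Agent.ClassicalGeometry.OrthSemi Cfsg.Agent.LieClassical.QuadForms
  Cfsg.Agent.ClassicalGeometry.TrialityOct Cfsg.Agent.ClassicalGeometry.Triality
  Cfsg.Agent.H198.TriBase Cfsg.Agent.H752.SemiNormal

variable {F : Type*} [Field F]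

theorem fix_of_small (hF : Nat.card F = 2) {M : G8 F} {r : ℕ} (hr : r.Prime) (h5 : 5 ≤ r) (hMr : M ^ r = 1)
    (P : V8 F → Prop) (hP : ∀ v, P v → P (M.1 v)) (f : {v // P v} → F × F) (hf : Function.Injective f) :
    ∀ v, P v → M.1 v = v := by
  have : Finite F := Nat.finite_of_card_ne_zero (by omega)
  have hfin : Finite {v // P v} := Finite.of_injective f hf
  have hcard : Nat.card {v // P v} ≤ 4 := by
    have h1 := Nat.card_le_card_of_injective f hf
    rw [Nat.card_prod, hF] at h1
    exact h1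
  have hPk : ∀ (k : ℕ) v, P v → P ((M ^ k).1 v) := by
    intro k
    induction k with
    | zero => intro v hv; exact hv
    | succ k ih =>
      intro v hv
      rw [pow_succ]
      exact ih _ (hP v hv)
  let s : Equiv.Perm {v // P v} := Equiv.Perm.subtypePerm M.1 fun v => ⟨fun h => by
    have h1 := hPk (r - 1) _ h
    have h2 : (M ^ (r - 1)).1 (M.1 v) = v := by
      have h3 : (M ^ (r - 1) * M).1 v = v := by
        rw [← pow_succ, Nat.sub_add_cancel hr.one_le, hMr]
        rfl
      exact h3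
    rwa [h2] at h1, hP v⟩
  have hsk : ∀ (k : ℕ) (v : {v // P v}), ((s ^ k) v : V8 F) = (M ^ k).1 v := by
    intro k
    induction k with
    | zero => intro v; rfl
    | succ k ih =>
      intro v
      rw [pow_succ, pow_succ]
      change ((s ^ k) (s v) : V8 F) = (M ^ k).1 (M.1 v)
      rw [ih]
      rfl
  have hsr : s ^ r = 1 := by
    ext1 v
    apply Subtype.ext
    rw [hsk, hMr]
    rfl
  have hs1 : s = 1 := by
    rw [← orderOf_eq_one_iff]
    have h1 : orderOf s ∣ r := orderOf_dvd_of_pow_eq_one hsr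
    rcases (Nat.dvd_prime hr).1 h1 with h2 | h2
    · exact h2
    · exfalso
      have h3 : orderOf s ∣ Nat.card (Equiv.Perm {v // P v}) := orderOf_dvd_natCard s
      rw [Nat.card_perm, h2, hr.dvd_factorial] at h3
      omega
  intro v hv
  have h1 := hsk 1 ⟨v, hv⟩
  rw [pow_one, pow_one, hs1] at h1
  exact h1.symm

theorem exists_s [Finite F] {p : ℕ} [CharP F p] (h3 : (3 : F) ≠ 0) {M : G8 F} (h : Fx0 M) {r : ℕ}
    (hr : r.Prime) (hr3 : r ≠ 3) (hrp : r ≠ p) (hMr : M ^ r = 1) (hM1 : M ≠ 1) :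
    ∃ s : F, s ≠ 0 ∧ s * s ≠ 1 := by
  by_contra hcon
  push Not at hcon
  have h2 : (2 : F) = 0 := by
    by_contra h2
    apply h3
    linear_combination hcon 2 h2
  have hp2 : p = 2 := by
    have h4 : ((2 : ℕ) : F) = 0 := by exact_mod_cast h2
    rw [CharP.cast_eq_zero_iff F p] at h4
    exact (Nat.prime_dvd_prime_iff_eq (CharP.char_is_prime F p) Nat.prime_two).1 h4
  have h5 : 5 ≤ r := by
    have e1 : r ≠ 2 := fun h => hrp (by rw [h, hp2])
    have e4 : r ≠ 4 := by
      rintro rfl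
      revert hr
      decide
    have := hr.two_le
    omega
  have hone : ∀ a : F, a = 0 ∨ a = 1 := by
    intro a
    by_cases ha : a = 0
    · exact Or.inl ha
    · right
      have e1 := hcon a ha
      have e2 : (a - 1) * (a - 1) = 0 := by linear_combination e1 - h2 * a + h2
      exact sub_eq_zero.1 (mul_self_eq_zero.1 e2)
  have hF : Nat.card F = 2 := by
    classical
    rw [Nat.card_eq_two_iff]
    refine ⟨0, 1, zero_ne_one, ?_⟩
    ext a
    simp only [Set.mem_insert_iff, Set.mem_singleton_iff, Set.mem_univ, iff_true]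
    exact hone a
  apply hM1
  have e1 : ∀ v, WL F v → M.1 v = v := fix_of_small hF hr h5 hMr (WL F) (fun v hv => h.wl hv)
    (fun v => (v.1 (.inl 2), v.1 (.inl 3))) (by
      rintro ⟨v, h0, h1, k0, k1, k2, k3⟩ ⟨w, h0', h1', k0', k1', k2', k3'⟩ e
      rw [Prod.mk.injEq] at e
      apply Subtype.ext
      exact ext8 (h0.trans h0'.symm) (h1.trans h1'.symm) e.1 e.2 (k0.trans k0'.symm) (k1.trans k1'.symm)
        (k2.trans k2'.symm) (k3.trans k3'.symm))
  have e2 : ∀ v, WR F v → M.1 v = v := fix_of_small hF hr h5 hMr (WR F) (fun v hv => h.wr hv)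
    (fun v => (v.1 (.inr 2), v.1 (.inr 3))) (by
      rintro ⟨v, h0, h1, k0, k1, k2, k3⟩ ⟨w, h0', h1', k0', k1', k2', k3'⟩ e
      rw [Prod.mk.injEq] at e
      apply Subtype.ext
      exact ext8 (h0.trans h0'.symm) (h1.trans h1'.symm) (k2.trans k2'.symm) (k3.trans k3'.symm)
        (k0.trans k0'.symm) (k1.trans k1'.symm) e.1 e.2)
  apply Subtype.ext
  ext1 v
  change M.1 v = v
  conv_lhs => rw [decomp3 v]
  rw [h.lin.add, h.lin.add, h.map_pH, e1 _ (wl_pL v), e2 _ (wr_pR v), ← decomp3 v]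

end Cfsg.Agent.H237.RC.ID
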